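import Cfsg.Agent.Nodes.CardVV
import Cfsg.Agent.Nodes.CardWitt
import Cfsg.Agent.KFacts.RgdFiltClass
import Cfsg.Agent.H769.Kaw.Step

/-!
# Root group data of type `C₂` (helper781, S3499)

* `Comm` facts of `V_J`, `J = {1}`, when the long root groups have prime order;
* orders of `U`, `V_J`, `V_{N,J}`;
* `HasC2` and the instance `PSU 4 K q`.
-/

set_option autoImplicit false
set_option linter.unusedSectionVars false

open scoped commutatorElement

namespace Cfsg.Agent.H781.EPU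

open CoxeterSystem Cfsg.Agent.ChevalleyStructure.CoxeterGeom Cfsg.Agent.Tits.Roots Cfsg.Agent.Tits.Core
  Cfsg.Agent.Tits.RootComb Cfsg.Agent.Nodes.Comb Cfsg.Agent.Nodes.Reps Cfsg.Agent.Nodes.BNOf
  Cfsg.Agent.Nodes.CardSup Cfsg.Agent.Nodes.TypeC Cfsg.Agent.Nodes.CardVV
  Cfsg.Agent.Nodes.StabComb Cfsg.Agent.Nodes.Bruhat Cfsg.Agent.Nodes.OppDec Cfsg.Agent.Nodes.LeviDec

/-! ### generalities -/

/-- commutators of a join -/
theorem comm_mem_of_gen {G : Type*} [Group G] {ι : Type*} (X : ι → Subgroup G) (Z : Subgroup G)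
    (hZ : ∀ i, ∀ g ∈ X i, ∀ z ∈ Z, g * z = z * g) (hc : ∀ i j, ∀ g ∈ X i, ∀ k ∈ X j, ⁅g, k⁆ ∈ Z) :
    ∀ g ∈ (⨆ i, X i), ∀ k ∈ (⨆ i, X i), ⁅g, k⁆ ∈ Z := by
  -- `H` centralises `Z`
  have h0 : (⨆ i, X i) ≤ Subgroup.centralizer (Z : Set G) := by
    refine iSup_le fun i g hg => ?_
    rw [Subgroup.mem_centralizer_iff]
    intro z hz
    exact (hZ i g hg z hz).symm
  have h0' : ∀ g ∈ (⨆ i, X i), ∀ z ∈ Z, g * z * g⁻¹ = z := by
    intro g hg z hz
    rw [mul_inv_eq_iff_eq_mul]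
    exact (Subgroup.mem_centralizer_iff.1 (h0 hg) z hz).symm
  have h1 : ∀ i, ∀ g ∈ X i, ∀ k ∈ (⨆ i, X i), ⁅g, k⁆ ∈ Z := by
    intro i g hg k hk
    refine Subgroup.iSup_induction' (S := X) (C := fun k _ => ⁅g, k⁆ ∈ Z) (fun j k hk => hc i j g hg k hk) ?_ ?_ hk
    · rw [commutatorElement_one_right]
      exact Z.one_mem
    · intro a b ha hb h2 h3
      have e : ⁅g, a * b⁆ = ⁅g, a⁆ * (a * ⁅g, b⁆ * a⁻¹) := by
        simp only [commutatorElement_def]
        group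
      rw [e, h0' a ha _ h3]
      exact Z.mul_mem h2 h3
  intro g hg k hk
  refine Subgroup.iSup_induction' (S := X) (C := fun g _ => ⁅g, k⁆ ∈ Z) (fun i g hg => h1 i g hg k hk) ?_ ?_ hg
  · rw [commutatorElement_one_left]
    exact Z.one_mem
  · intro a b ha hb h2 h3
    have e : ⁅a * b, k⁆ = (a * ⁅b, k⁆ * a⁻¹) * ⁅a, k⁆ := by
      simp only [commutatorElement_def]
      group
    rw [e, h0' a ha _ h3]
    exact Z.mul_mem h3 h2

/-- a normalised subgroup of order `p` of a `p`-group is central -/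
theorem central_of_card {G : Type*} [Group G] [Finite G] {p : ℕ} [hp : Fact p.Prime] {U Z : Subgroup G} (hU : IsPGroup p U)
    (hn : ∀ u ∈ U, ∀ z ∈ Z, u * z * u⁻¹ ∈ Z) (hZ : Nat.card Z = p) : ∀ u ∈ U, ∀ z ∈ Z, u * z = z * u := by
  let : MulAction U Z :=
    { smul := fun u z => ⟨u * z * (u : G)⁻¹, hn u u.2 z z.2⟩
      one_smul := fun z => Subtype.ext (by
        change ((1 : U) : G) * z * ((1 : U) : G)⁻¹ = z
        simp)
      mul_smul := fun u v z => Subtype.ext (by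
        change ((u * v : U) : G) * z * ((u * v : U) : G)⁻¹ = u * (v * z * (v : G)⁻¹) * (u : G)⁻¹
        push_cast
        group) }
  have hs : ∀ (u : U) (z : Z), ((u • z : Z) : G) = u * z * (u : G)⁻¹ := fun _ _ => rfl
  have h1 := hU.card_modEq_card_fixedPoints Z
  rw [hZ] at h1
  have h2 : p ∣ Nat.card (MulAction.fixedPoints U Z) := (Nat.modEq_zero_iff_dvd.1 (h1.symm.trans (by
    rw [Nat.modEq_zero_iff_dvd])))
  have h3 : (1 : Z) ∈ MulAction.fixedPoints U Z := by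
    intro u
    apply Subtype.ext
    rw [hs]
    simp
  have h4 : Nat.card Z ≤ Nat.card (MulAction.fixedPoints U Z) := by
    rw [hZ]
    have : Nonempty (MulAction.fixedPoints U Z) := ⟨⟨1, h3⟩⟩
    exact Nat.le_of_dvd Nat.card_pos h2
  have h5 : MulAction.fixedPoints U Z = Set.univ := by
    apply Set.eq_of_subset_of_ncard_le (Set.subset_univ _)
    rw [Set.ncard_univ]
    exact h4
  intro u hu z hz
  have h6 : (⟨z, hz⟩ : Z) ∈ MulAction.fixedPoints U Z := by rw [h5]; trivial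
  have h7 := congrArg Subtype.val (h6 ⟨u, hu⟩)
  rw [hs] at h7
  exact mul_inv_eq_iff_eq_mul.1 h7

/-! ### roots of type `C₂` -/

section comb

variable {W : Type*} [Group W] {cs : CoxeterSystem (CoxeterMatrix.B 2) W}

/-- the positive roots -/
def sP : Finset (Fin 2 → ℤ) := {![1, 0], ![0, 1], ![1, 1], ![2, 1]}

/-- the positive roots different from `α₁` -/
def sV : Finset (Fin 2 → ℤ) := {![1, 0], ![1, 1], ![2, 1]}

theorem eq_vec {y : Fin 2 → ℤ} {u v : ℤ} (h1 : y 0 = u) (h2 : y 1 = v) : y = ![u, v] := by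
  funext k
  fin_cases k
  · exact h1
  · exact h2

theorem sr_zero : (sr 0 : Fin 2 → ℤ) = ![1, 0] := by
  funext k
  fin_cases k <;> simp [sr]

theorem sr_one : (sr 1 : Fin 2 → ℤ) = ![0, 1] := by
  funext k
  fin_cases k <;> simp [sr]

theorem root_cases {y : Fin 2 → ℤ} (hy : IsRoot cs (Nodes.TypeC.isCartan 2) y) :
    (y 0 = 1 ∧ y 1 = 0) ∨ (y 0 = 0 ∧ y 1 = 1) ∨ (y 0 = 1 ∧ y 1 = 1) ∨ (y 0 = 2 ∧ y 1 = 1) ∨
    (y 0 = -1 ∧ y 1 = 0) ∨ (y 0 = 0 ∧ y 1 = -1) ∨ (y 0 = -1 ∧ y 1 = -1) ∨ (y 0 = -2 ∧ y 1 = -1) := by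
  rw [isRoot_iff] at hy
  obtain ⟨a, b, hab, e⟩ := hy
  have e1 : ee y 0 = y 0 := by rw [ee_two]; rfl
  have e2 : ee y 1 = -y 0 + 2 * y 1 := by rw [ee_two]; rfl
  have e4 := congrFun e 0
  have e5 := congrFun e 1
  rw [e1, Pi.add_apply, wt_apply, wt_apply] at e4
  rw [e2, Pi.add_apply, wt_apply, wt_apply] at e5
  obtain ⟨i, s⟩ := a
  obtain ⟨j, t⟩ := b
  fin_cases i <;> fin_cases j <;> cases s <;> cases t <;> simp [Nodes.TypeC.Ok] at hab e4 e5 <;> omega

theorem isRoot_sP {y : Fin 2 → ℤ} (hy : y ∈ sP) : IsRoot cs (Nodes.TypeC.isCartan 2) y := by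
  unfold sP at hy
  simp only [Finset.mem_insert, Finset.mem_singleton] at hy
  rcases hy with rfl | rfl | rfl | rfl
  · rw [← sr_zero]; exact isRoot_sr cs _ 0
  · rw [← sr_one]; exact isRoot_sr cs _ 1
  · rw [isRoot_iff]
    refine ⟨((0 : Fin 2), true), ((1 : Fin 2), true), Or.inl (by decide), ?_⟩
    rw [ee_two]
    funext k
    fin_cases k <;> simp [wt_apply]
  · rw [isRoot_iff]
    exact ⟨_, _, Or.inr rfl, ee_long⟩

theorem sP_nonneg {y : Fin 2 → ℤ} (hy : y ∈ sP) : 0 ≤ y := by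
  unfold sP at hy
  simp only [Finset.mem_insert, Finset.mem_singleton] at hy
  rcases hy with rfl | rfl | rfl | rfl <;> intro k <;> fin_cases k <;> simp

theorem mem_sP {y : Fin 2 → ℤ} : y ∈ sP ↔ y ∈ RGD.Pos cs (Nodes.TypeC.isCartan 2) := by
  refine ⟨fun h => ⟨isRoot_sP h, sP_nonneg h⟩, fun h => ?_⟩
  have h0 : 0 ≤ y 0 := h.2 0
  have h1 : 0 ≤ y 1 := h.2 1
  unfold sP
  simp only [Finset.mem_insert, Finset.mem_singleton]
  rcases root_cases h.1 with h | h | h | h | h | h | h | h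
  · left; exact eq_vec h.1 h.2
  · right; left; exact eq_vec h.1 h.2
  · right; right; left; exact eq_vec h.1 h.2
  · right; right; right; exact eq_vec h.1 h.2
  all_goals (exfalso; omega)

theorem pos_eq : RGD.Pos cs (Nodes.TypeC.isCartan 2) = (sP : Set (Fin 2 → ℤ)) := by
  ext y
  rw [Finset.mem_coe, mem_sP (cs := cs)]

theorem mem_sV {y : Fin 2 → ℤ} : y ∈ sV ↔ y ∈ NotJ cs (Nodes.TypeC.isCartan 2) ({1} : Set (Fin 2)) := by
  constructor
  · intro hy
    have h1 : y ∈ sP := by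
      unfold sV at hy
      unfold sP
      simp only [Finset.mem_insert, Finset.mem_singleton] at hy ⊢
      tauto
    refine ⟨isRoot_sP h1, sP_nonneg h1, 0, by simp, ?_⟩
    unfold sV at hy
    simp only [Finset.mem_insert, Finset.mem_singleton] at hy
    rcases hy with rfl | rfl | rfl <;> simp
  · rintro ⟨h1, h2, k, hk, h3⟩
    have hk0 : k = 0 := by
      fin_cases k
      · rfl
      · simp at hk
    subst hk0
    have h4 : y ∈ sP := mem_sP.2 ⟨h1, h2⟩
    unfold sP at h4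
    unfold sV
    simp only [Finset.mem_insert, Finset.mem_singleton] at h4 ⊢
    rcases h4 with rfl | rfl | rfl | rfl
    · left; rfl
    · simp at h3
    · right; left; rfl
    · right; right; rfl

theorem notJ_eq : NotJ cs (Nodes.TypeC.isCartan 2) ({1} : Set (Fin 2)) = (sV : Set (Fin 2 → ℤ)) := by
  ext y
  rw [Finset.mem_coe, mem_sV (cs := cs)]

theorem posJ_eq : PosJ cs (Nodes.TypeC.isCartan 2) ({1} : Set (Fin 2)) = {sr 1} := by
  ext y
  rw [Set.mem_singleton_iff]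
  constructor
  · rintro ⟨h1, h2, h3⟩
    have h4 : y 0 = 0 := h3 0 (by simp)
    have h5 : 0 ≤ y 1 := h2 1
    rw [sr_one]
    rcases root_cases h1 with h | h | h | h | h | h | h | h <;> first | exact eq_vec h4 h.2 | (exfalso; omega)
  · rintro rfl
    refine ⟨isRoot_sr cs _ 1, sr_nonneg _, fun k hk => ?_⟩
    fin_cases k
    · simp [sr]
    · simp at hk

/-- between two roots of `V_J` -/
theorem btwn_V {x y z : Fin 2 → ℤ} (hx : x ∈ sV) (hy : y ∈ sV) (hxy : x ≠ y)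
    (hz : Btwn cs (Nodes.TypeC.isCartan 2) x y z) : z = ![2, 1] ∧ x ≠ ![2, 1] ∧ y ≠ ![2, 1] := by
  obtain ⟨h1, m, a, b, hm, ha, hb, e⟩ := hz
  have e0 := congrFun e 0
  have e1 := congrFun e 1
  simp only [Pi.smul_apply, Pi.add_apply, smul_eq_mul] at e0 e1
  unfold sV at hx hy
  simp only [Finset.mem_insert, Finset.mem_singleton] at hx hy
  have hr := root_cases h1
  rcases hx with rfl | rfl | rfl <;> rcases hy with rfl | rfl | rfl <;>
    first
    | exact absurd rfl hxy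
    | (simp at e0 e1
       rcases hr with h | h | h | h | h | h | h | h <;> rw [h.1] at e0 <;> rw [h.2] at e1 <;>
        first
        | (exfalso; nlinarith)
        | exact ⟨eq_vec h.1 h.2, by decide, by decide⟩)

/-! ### reflections -/

theorem rep_zero (x : Fin 2 → ℤ) : rep cs (Nodes.TypeC.isCartan 2) (cs.simple 0) x = ![-x 0 + 2 * x 1, x 1] := by
  rw [rep_simple, refl_apply]
  have e0 : Nodes.TypeC.A 2 0 0 = 2 := by rw [A_apply]; rfl
  have e1 : Nodes.TypeC.A 2 0 1 = -2 := by rw [A_apply]; rfl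
  have e : pairing (Nodes.TypeC.A 2) 0 x = 2 * x 0 - 2 * x 1 := by
    unfold pairing
    rw [Fin.sum_univ_two, e0, e1]
    ring
  rw [e]
  apply eq_vec
  · simp
    ring
  · simp

theorem rep_one' (x : Fin 2 → ℤ) : rep cs (Nodes.TypeC.isCartan 2) (cs.simple 1) x = ![x 0, x 0 - x 1] := by
  rw [rep_simple, refl_apply]
  have e0 : Nodes.TypeC.A 2 1 0 = -1 := by rw [A_apply]; rfl
  have e1 : Nodes.TypeC.A 2 1 1 = 2 := by rw [A_apply]; rfl
  have e : pairing (Nodes.TypeC.A 2) 1 x = -x 0 + 2 * x 1 := by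
    unfold pairing
    rw [Fin.sum_univ_two, e0, e1]
    ring
  rw [e]
  apply eq_vec
  · simp
  · simp
    ring

theorem rep_neg (x : Fin 2 → ℤ) :
    rep cs (Nodes.TypeC.isCartan 2) (cs.simple 0 * cs.simple 1 * cs.simple 0 * cs.simple 1) x = -x := by
  rw [rep_mul_apply, rep_mul_apply, rep_mul_apply, rep_one', rep_zero, rep_one', rep_zero]
  funext k
  fin_cases k
  · simp
    ring
  · simp
    ring

theorem rep_neg_inv (x : Fin 2 → ℤ) :
    rep cs (Nodes.TypeC.isCartan 2) (cs.simple 0 * cs.simple 1 * cs.simple 0 * cs.simple 1)⁻¹ x = -x := by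
  have h1 := rep_inv_apply (cs := cs) (h := Nodes.TypeC.isCartan 2)
    (cs.simple 0 * cs.simple 1 * cs.simple 0 * cs.simple 1) (-x)
  rw [rep_neg, neg_neg] at h1
  exact h1

end comb

/-! ### orders -/

section rgd

variable {W Y : Type*} [Group W] [Finite W] [Group Y] [Finite Y] {cs : CoxeterSystem (CoxeterMatrix.B 2) W} {p : ℕ}
  {T : Subgroup Y} {n : Fin 2 → Y} {X : (Fin 2 → ℤ) → Subgroup Y}
  (R : RGD cs (Nodes.TypeC.isCartan 2) p T n X)

include R

theorem card_short : Nat.card (X ![1, 1]) = Nat.card (X (sr 0)) := by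
  rw [← card_X_rep R (cs.simple 1) (isRoot_sr cs _ 0), rep_one', sr_zero]
  rfl

theorem card_long : Nat.card (X ![2, 1]) = Nat.card (X (sr 1)) := by
  rw [← card_X_rep R (cs.simple 0) (isRoot_sr cs _ 1), rep_zero, sr_one]
  rfl

theorem card_Up : Nat.card (RGD.Sup X (RGD.Pos cs (Nodes.TypeC.isCartan 2))) =
    Nat.card (X (sr 0)) ^ 2 * Nat.card (X (sr 1)) ^ 2 := by
  rw [pos_eq, card_sup R (s := sP) (by rw [← pos_eq (cs := cs)]) (by
    rw [← pos_eq (cs := cs)]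
    exact Nodes.Unique.closed_pos)]
  unfold sP
  rw [Finset.prod_insert (by decide), Finset.prod_insert (by decide), Finset.prod_insert (by decide),
    Finset.prod_singleton, card_short R, card_long R, ← sr_zero, ← sr_one]
  ring

omit [Finite W] [Finite Y] R in
theorem closed_V : Nodes.Unique.Closed cs (Nodes.TypeC.isCartan 2) (NotJ cs (Nodes.TypeC.isCartan 2) ({1} : Set (Fin 2))) := by
  rintro x ⟨hx, hx0, k, hk, hx1⟩ y ⟨hy, hy0, l, hl, hy1⟩ z hz
  have hk0 : k = 0 := by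
    fin_cases k
    · rfl
    · simp at hk
  have hl0 : l = 0 := by
    fin_cases l
    · rfl
    · simp at hl
  subst hk0
  subst hl0
  refine ⟨hz.1, RGD.nonneg_of_btwn hx0 hy0 hz, 0, hk, ?_⟩
  obtain ⟨-, m, a, b, hm, ha, hb, e⟩ := hz
  have e0 := congrFun e 0
  simp only [Pi.smul_apply, Pi.add_apply, smul_eq_mul] at e0
  have h1 : 0 < m * z 0 := by
    rw [e0]
    exact add_pos (mul_pos ha hx1) (mul_pos hb hy1)
  exact pos_of_mul_pos_right h1 hm.le

theorem card_V : Nat.card (VJ cs (Nodes.TypeC.isCartan 2) X ({1} : Set (Fin 2))) =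
    Nat.card (X (sr 0)) ^ 2 * Nat.card (X (sr 1)) := by
  unfold VJ
  rw [notJ_eq, card_sup R (s := sV) (by
      rw [← notJ_eq (cs := cs)]
      exact fun x hx => ⟨hx.1, hx.2.1⟩) (by
    rw [← notJ_eq (cs := cs)]
    exact closed_V)]
  unfold sV
  rw [Finset.prod_insert (by decide), Finset.prod_insert (by decide),
    Finset.prod_singleton, card_short R, card_long R, ← sr_zero]
  ring

theorem card_VN : Nat.card (VNJ cs (Nodes.TypeC.isCartan 2) X ({1} : Set (Fin 2))) =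
    Nat.card (VJ cs (Nodes.TypeC.isCartan 2) X ({1} : Set (Fin 2))) := by
  obtain ⟨g, hg⟩ := exists_rp cs R.nsys (cs.simple 0 * cs.simple 1 * cs.simple 0 * cs.simple 1)
  have h1 := KFacts.RgdPar.cj_Sup_eq R hg (Ω := NotJ cs (Nodes.TypeC.isCartan 2) ({1} : Set (Fin 2))) fun x hx => hx.1
  have h2 : VNJ cs (Nodes.TypeC.isCartan 2) X ({1} : Set (Fin 2)) =
      cj g (VJ cs (Nodes.TypeC.isCartan 2) X ({1} : Set (Fin 2))) := by
    unfold VNJ VJ
    rw [h1]
    congr 1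
    ext x
    simp only [Set.mem_ofPred_eq, rep_neg_inv]
    rfl
  rw [h2]
  exact card_cj _

theorem card_PJ_mul : Nat.card (PJ cs (Nodes.TypeC.isCartan 2) T X ({1} : Set (Fin 2))) *
    Nat.card (VJ cs (Nodes.TypeC.isCartan 2) X ({1} : Set (Fin 2))) ≤ Nat.card Y := by
  rw [← card_VN R, mul_comm, ← Nat.card_prod]
  refine Nat.card_le_card_of_injective (fun x => (x.1 : Y) * x.2) ?_
  rintro ⟨⟨a, ha⟩, ⟨b, hb⟩⟩ ⟨⟨a', ha'⟩, ⟨b', hb'⟩⟩ e
  have e1 : a * b = a' * b' := e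
  have e2 : a'⁻¹ * a = b' * b⁻¹ := by
    rw [inv_mul_eq_iff_eq_mul, ← mul_assoc, ← e1, mul_inv_cancel_right]
  have e3 : a'⁻¹ * a ∈ VNJ cs (Nodes.TypeC.isCartan 2) X ({1} : Set (Fin 2)) ⊓
      PJ cs (Nodes.TypeC.isCartan 2) T X ({1} : Set (Fin 2)) :=
    Subgroup.mem_inf.2 ⟨mul_mem (inv_mem ha') ha, by rw [e2]; exact mul_mem hb' (inv_mem hb)⟩
  rw [VNJ_inf_PJ R, Subgroup.mem_bot] at e3
  have e4 : a = a' := (inv_mul_eq_one.1 e3).symm
  subst e4
  have e5 : b = b' := mul_left_cancel e1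
  subst e5
  rfl

end rgd

/-! ### commutators -/

section comm

variable {W Y : Type*} [Group W] [Finite W] [Group Y] [Finite Y] {cs : CoxeterSystem (CoxeterMatrix.B 2) W} {p : ℕ}
  [hp : Fact p.Prime] {T : Subgroup Y} {n : Fin 2 → Y} {X : (Fin 2 → ℤ) → Subgroup Y}
  (R : RGD cs (Nodes.TypeC.isCartan 2) p T n X)

include R

/-- `[V, V] ≤ X_{2,1}` -/
theorem comm_mem (ha : Nat.card (X (sr 0)) = p ^ 2) (hb : Nat.card (X (sr 1)) = p) :
    ∀ v ∈ VJ cs (Nodes.TypeC.isCartan 2) X ({1} : Set (Fin 2)),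
      ∀ w ∈ VJ cs (Nodes.TypeC.isCartan 2) X ({1} : Set (Fin 2)), ⁅v, w⁆ ∈ X ![2, 1] := by
  have hab : ∀ x ∈ sV, ∀ g ∈ X x, ∀ k ∈ X x, ⁅g, k⁆ = 1 := by
    intro x hx
    have h1 : Nat.card (X x) = p ^ 2 ∨ Nat.card (X x) = p := by
      unfold sV at hx
      simp only [Finset.mem_insert, Finset.mem_singleton] at hx
      rcases hx with rfl | rfl | rfl
      · left; rw [← sr_zero]; exact ha
      · left; rw [card_short R]; exact ha
      · right; rw [card_long R]; exact hb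
    intro g hg k hk
    rw [commutatorElement_eq_one_iff_mul_comm]
    have h2 : (⟨g, hg⟩ : X x) * ⟨k, hk⟩ = ⟨k, hk⟩ * ⟨g, hg⟩ := by
      rcases h1 with h1 | h1
      · exact (IsPGroup.isMulCommutative_of_card_eq_prime_sq h1).is_comm.comm _ _
      · have := isCyclic_of_prime_card h1
        exact IsCyclic.commGroup.mul_comm _ _
    exact congrArg Subtype.val h2
  have hc : ∀ x ∈ sV, ∀ y ∈ sV, ∀ g ∈ X x, ∀ k ∈ X y, ⁅g, k⁆ ∈ X ![2, 1] := by
    intro x hx y hy g hg k hk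
    by_cases hxy : x = y
    · subst hxy
      rw [hab x hx g hg k hk]
      exact one_mem _
    · have hx' := mem_sV (cs := cs).1 hx
      have hy' := mem_sV (cs := cs).1 hy
      have hne : x ≠ -y := by
        rintro rfl
        have h1 : 0 ≤ y 0 := hy'.2.1 0
        have h2 : 0 ≤ (-y) 0 := hx'.2.1 0
        obtain ⟨l, hl, hy1⟩ := hy'.2.2
        have h3 : 0 ≤ (-y) l := hx'.2.1 l
        rw [Pi.neg_apply] at h3
        omega
      refine (iSup_le fun z => ?_ : btw cs (Nodes.TypeC.isCartan 2) X x y ≤ X ![2, 1]) (R.comm x y hx'.1 hy'.1 hxy hne g hg k hk)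
      rw [(btwn_V hx hy hxy z.2).1]
  have hz : ∀ x ∈ sV, ∀ g ∈ X x, ∀ k ∈ X ![2, 1], g * k = k * g := by
    intro x hx g hg k hk
    have hr : (![2, 1] : Fin 2 → ℤ) ∈ sV := by decide
    rw [← commutatorElement_eq_one_iff_mul_comm]
    by_cases hxy : x = ![2, 1]
    · subst hxy
      exact hab _ hx g hg k hk
    · have hx' := mem_sV (cs := cs).1 hx
      have hy' := mem_sV (cs := cs).1 hr
      have hne : x ≠ -![2, 1] := by
        rintro rfl
        have h2 : 0 ≤ (-![2, 1] : Fin 2 → ℤ) 0 := hx'.2.1 0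
        simp at h2
      have h1 : btw cs (Nodes.TypeC.isCartan 2) X x ![2, 1] ≤ ⊥ :=
        iSup_le fun z => absurd rfl (btwn_V hx hr hxy z.2).2.2
      exact h1 (R.comm x ![2, 1] hx'.1 hy'.1 hxy hne g hg k hk)
  unfold VJ RGD.Sup
  refine comm_mem_of_gen (fun z : (NotJ cs (Nodes.TypeC.isCartan 2) ({1} : Set (Fin 2))) => X z.1) (X ![2, 1]) ?_ ?_
  · intro i g hg z hz'
    exact hz i.1 (mem_sV.2 i.2) g hg z hz'
  · intro i j g hg k hk
    exact hc i.1 (mem_sV.2 i.2) j.1 (mem_sV.2 j.2) g hg k hk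

/-- `[V, V] ≤ Z(U)` -/
theorem comm_central (ha : Nat.card (X (sr 0)) = p ^ 2) (hb : Nat.card (X (sr 1)) = p) :
    ∀ v ∈ VJ cs (Nodes.TypeC.isCartan 2) X ({1} : Set (Fin 2)),
      ∀ w ∈ VJ cs (Nodes.TypeC.isCartan 2) X ({1} : Set (Fin 2)),
        ∀ u ∈ RGD.Sup X (RGD.Pos cs (Nodes.TypeC.isCartan 2)), u * ⁅v, w⁆ = ⁅v, w⁆ * u := by
  set V := VJ cs (Nodes.TypeC.isCartan 2) X ({1} : Set (Fin 2)) with hV
  set U := RGD.Sup X (RGD.Pos cs (Nodes.TypeC.isCartan 2)) with hU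
  have h1 : ⁅V, V⁆ ≤ X ![2, 1] := by
    rw [Subgroup.commutator_le]
    exact comm_mem R ha hb
  have h2 : Nat.card (⁅V, V⁆ : Subgroup Y) ∣ p := by
    rw [← hb, ← card_long R]
    exact Subgroup.card_dvd_of_le h1
  have h3 : ∀ u ∈ U, ∀ z ∈ ⁅V, V⁆, u * z * u⁻¹ ∈ ⁅V, V⁆ := by
    intro u hu z hz
    have h4 : u ∈ Subgroup.normalizer (V : Set Y) :=
      (le_trans (le_trans RGD.U_le_B B_le_PJ) (PJ_le_normalizer_VJ R ({1} : Set (Fin 2)))) hu
    have h5 : cj u V = V := mem_normalizer_iff_cj.1 h4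
    have h6 : cj u ⁅V, V⁆ = ⁅V, V⁆ := by
      unfold cj at h5 ⊢
      rw [Subgroup.map_commutator, h5]
    rw [← h6]
    exact ⟨z, hz, rfl⟩
  intro v hv w hw u hu
  have h4 : ⁅v, w⁆ ∈ ⁅V, V⁆ := Subgroup.commutator_mem_commutator hv hw
  rcases (Nat.dvd_prime hp.out).1 h2 with h5 | h5
  · rw [Subgroup.card_eq_one] at h5
    rw [h5, Subgroup.mem_bot] at h4
    rw [h4, mul_one, one_mul]
  · exact central_of_card R.isPGroup_Upos h3 h5 u hu _ h4

end comm

end Cfsg.Agent.H781.EPU
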