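import Cfsg.Agent.H781.EPU.C2
import Cfsg.Agent.H833.TenFive.ParJ
import Cfsg.Agent.H587.UF.Tv
import Cfsg.Agent.H968.EPU.LocN
import Cfsg.Agent.S0280
import Cfsg.Agent.S0283

/-!
# `U₄(3)` in `U₆(2)`: the facts on the socle (helper781, S3499)

`n_side : EPT A Γ → HasSoc A (PSU 4 K 3) → ∃ N P V, LocN A N P V`.
-/

set_option autoImplicit false
set_option linter.unusedSectionVars false

open scoped commutatorElement

namespace Cfsg.Agent.H781.EPU

open CoxeterSystem Cfsg.Agent.ChevalleyStructure.CoxeterGeom Cfsg.Agent.Tits.Roots Cfsg.Agent.Tits.Core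
  Cfsg.Agent.Tits.RootComb Cfsg.Agent.Nodes.Comb Cfsg.Agent.Nodes.Reps Cfsg.Agent.Nodes.BNOf
  Cfsg.Agent.Nodes.CardSup Cfsg.Agent.Nodes.TypeC Cfsg.Agent.Nodes.CardVV
  Cfsg.Agent.Nodes.StabComb Cfsg.Agent.Nodes.Bruhat Cfsg.Agent.Nodes.OppDec Cfsg.Agent.Nodes.LeviDec
  Cfsg.Agent.KFacts.RgdFilt Cfsg.Agent.KFacts.RgdBorelTits

/-- root group data of type `C₂` with a filtration; the short root groups have order `a` -/
def HasC2 (p a : ℕ) (G : Type*) [Group G] : Prop :=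
  ∃ (T : Subgroup G) (n : Fin 2 → G) (X : (Fin 2 → ℤ) → Subgroup G)
    (R : RGD (CoxeterMatrix.B 2).toCoxeterSystem (Nodes.TypeC.isCartan 2) p T n X)
    (F : (Fin 2 → ℤ) → ℝ → Subgroup G),
    Nodes.RGDLib.G1 (CoxeterMatrix.B 2).toCoxeterSystem (Nodes.TypeC.isCartan 2) X = ⊤ ∧ Filt R F ∧
      Nat.card (X (sr 0)) = a

theorem HasC2.of_equiv {p a : ℕ} {G H : Type*} [Group G] [Group H] [Finite G] (e : G ≃* H) (hG : HasC2 p a G) :
    HasC2 p a H := by
  obtain ⟨T, n, X, R, F, hX, hF, ha⟩ := hG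
  refine ⟨T.map e.toMonoidHom, fun i => e (n i), fun x => (X x).map e.toMonoidHom,
    Nodes.RGDLib.rgd_map_of_injective R e.toMonoidHom e.injective, fun x s => (F x s).map e.toMonoidHom, ?_,
    filt_map hF e.toMonoidHom _, ?_⟩
  · have h1 : (Nodes.RGDLib.G1 (CoxeterMatrix.B 2).toCoxeterSystem (Nodes.TypeC.isCartan 2) X).map e.toMonoidHom =
        Nodes.RGDLib.G1 (CoxeterMatrix.B 2).toCoxeterSystem (Nodes.TypeC.isCartan 2)
          (fun x => (X x).map e.toMonoidHom) := by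
      unfold Nodes.RGDLib.G1 RGD.Sup
      rw [Subgroup.map_iSup]
    rw [← h1, hX, Subgroup.map_top_of_surjective _ e.surjective]
  · rw [Subgroup.card_map_of_injective e.injective]
    exact ha

section

open Cfsg.Agent.TitsThree.WBridge Cfsg.Agent.Nodes.WittRoot Cfsg.Agent.Nodes.RGDLib Cfsg.Agent.Nodes.WittAll Cfsg.Agent.Nodes.WittU
  Cfsg.Agent.TitsThree Cfsg.Agent.TitsThree.Siegel Cfsg.Agent.TitsThree.WittFrame
  Cfsg.Agent.TitsThree.WittWeyl Cfsg.Agent.TitsThree.FrameCN Cfsg.Agent.KFacts.RgdFiltWitt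
  Cfsg.Agent.KFacts.RgdBorelTits

theorem hasC2_PSU {F : Type*} [Field F] [Fintype F] {q : ℕ} (hF : Fintype.card F = q ^ 2) {p : ℕ}
    [Fact p.Prime] [CharP F p] (hp : Odd p) : HasC2 p (q ^ 2) (Cfsg.PSU 4 F q) := by
  obtain ⟨W, -⟩ := exists_wframe (m := 2) hF (N := 4) (Or.inl rfl)
  obtain ⟨p0, hp0, -⟩ := exists_adm hF W
  have hA := AmbT.of_amb (amb_U hF W) p
  set M := KInstU.model hF (by norm_num : 3 ≤ 4) W with hM
  have : Finite ((Fin 4 → F) ≃ₗ[F] (Fin 4 → F)) :=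
    Finite.of_injective (fun g : (Fin 4 → F) ≃ₗ[F] (Fin 4 → F) => (g : (Fin 4 → F) → (Fin 4 → F)))
      DFunLike.coe_injective
  have hF0 : Filt (rgdC hA hp0 (CoxeterMatrix.B 2).toCoxeterSystem) (F2 (zr (toFrame W)) (rg (toFrame W))) :=
    (two hA (T := Nodes.WittRGD.Tor (toFrame W) M.I) (fun i => ⟨nn_mem hA p0 i, Nodes.WittRGD.mono_nn hp0 i⟩)
      (fun _ ht => ⟨ht.1, ht.2⟩) _).filt
  have hF1 := filt_restrict hF0 M.I (fun x _ => hA.rg_le x)
    (n' := fun i => (⟨Nodes.WittRGD.nn (toFrame W) p0 i, nn_mem hA p0 i⟩ : M.I)) (fun _ => rfl)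
    (rgd_restrict (rgdC hA hp0 _) M.I (fun x _ => hA.rg_le x) (fun i => nn_mem hA p0 i))
  have hF2 := filt_map hF1 M.φ (rgdC_model M hA hp0 (CoxeterMatrix.B 2).toCoxeterSystem)
  refine ⟨_, _, _, rgdC_model M hA hp0 _, _, Nodes.WittModel.G1_eq_top _ (by norm_num) _, hF2, ?_⟩
  rw [Nodes.CardWitt.card_X_model M (amb_U hF W) hp0 hp (x := sr 0) (a := ((0 : Fin 2), true))
    (b := ((1 : Fin 2), false)) (by decide) (by
      rw [sr_zero, ee_two]
      funext k
      fin_cases k <;> simp [wt_apply]), Nat.card_eq_fintype_card, hF]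

end

theorem card_psu_four_three {K : Type*} [Field K] [Fintype K] (hK : Fintype.card K = 3 ^ 2) :
    Nat.card (Cfsg.PSU 4 K 3) = 3265920 := by
  have h1 := S0280.result hK 4 (by norm_num)
  simp [Finset.prod_range_succ, Nat.even_iff] at h1
  omega

/-- the order of a Sylow 3-subgroup -/
theorem card_sylow_three {G : Type*} [Group G] [Finite G] [Fact (Nat.Prime 3)] (hG : Nat.card G = 3265920)
    (P : Sylow 3 G) : Nat.card P = 729 := by
  obtain ⟨k, hk⟩ := IsPGroup.iff_card.1 P.2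
  have h1 : Nat.card P * P.index = 3265920 := by
    rw [← hG]
    exact Subgroup.card_mul_index _
  have h2 : ¬ 3 ∣ P.index := P.not_dvd_index
  rw [hk] at h1 ⊢
  have h3 : k ≤ 6 := by
    by_contra hcon
    push Not at hcon
    have h4 : 3 ^ 7 ∣ 3265920 := (pow_dvd_pow 3 hcon).trans (Dvd.intro _ h1)
    norm_num at h4
  have h5 : k = 6 := by
    by_contra hcon
    apply h2
    interval_cases k <;> omega
  subst h5
  norm_num

/-- **the facts on the socle** -/
theorem n_side {Q : Type} [Group Q] [Finite Q] {A : Subgroup Q} {Γ : Subgroup (MulAut Q)}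
    (h : H284.EPT A Γ) {K : Type} [Field K] [Fintype K] (hK : Fintype.card K = 9)
    (hsoc : H419.EP.HasSoc A (Cfsg.PSU 4 K 3)) : ∃ N P V : Subgroup Q, H968.EPU.LocN A N P V := by
  obtain ⟨N, hNA, hN, hC, ⟨e⟩⟩ := hsoc
  have h3 : Fact (Nat.Prime 3) := ⟨Nat.prime_three⟩
  have hK' : Fintype.card K = 3 ^ 2 := by rw [hK]; norm_num
  have hsL : IsSimpleGroup (Cfsg.PSU 4 K 3) := S0283.result hK' 4 (by norm_num) (by norm_num)
  have hNs : IsSimpleGroup N := e.isSimpleGroup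
  have hcL : Nat.card (Cfsg.PSU 4 K 3) = 3265920 := card_psu_four_three hK'
  have hcN : Nat.card N = 3265920 := (Nat.card_congr e.toEquiv).trans hcL
  have hNΓ := H587.UF.inv_of_soc h hNA hN hC hNs
  have hch : CharP K 3 := by
    obtain ⟨q, hq⟩ := CharP.exists K
    obtain ⟨n, hp, hn⟩ := FiniteField.card K q
    rw [hK'] at hn
    have h4 : (3 : ℕ) = q := by
      have h5 : (3 : ℕ) ∣ q ^ (n : ℕ) := by rw [← hn]; exact dvd_pow_self 3 (by norm_num)
      exact (Nat.prime_dvd_prime_iff_eq Nat.prime_three hp).1 (Nat.prime_three.dvd_of_dvd_pow h5)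
    rw [h4]
    exact hq
  have hfinL : Finite (Cfsg.PSU 4 K 3) := Nat.finite_of_card_ne_zero (by rw [hcL]; norm_num)
  obtain ⟨T, n, X, R, F, hX, hF, ha⟩ := (hasC2_PSU hK' (p := 3) (by decide)).of_equiv e.symm
  have hW : Finite (CoxeterMatrix.B 2).Group := finite_W (CoxeterMatrix.B 2).toCoxeterSystem
  have hc : ∃ a b : N, a * b ≠ b * a := by
    by_contra hcon
    push Not at hcon
    have h4 : (X (sr 0)).Normal := ⟨fun x hx g => by rw [hcon g x, mul_inv_cancel_right]; exact hx⟩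
    rcases h4.eq_bot_or_eq_top with h5 | h5
    · rw [h5, Subgroup.card_bot] at ha
      norm_num at ha
    · rw [h5, Subgroup.card_top, hcN] at ha
      norm_num at ha
  have hGG := GG_eq_top (T := T) hX
  have hBT : KFacts.RgdCharP.BT (CoxeterMatrix.B 2).toCoxeterSystem (Nodes.TypeC.isCartan 2) 3 T X :=
    fun K hK h1 => borel_tits_of_filt hF hX hK h1
  have hconn : KFacts.RgdCharP.Conn (CoxeterMatrix.B 2) :=
    KFacts.RgdLieCharP.conn_of_simple R hX (KFacts.RgdLieCharP.center_eq_bot hc)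
  -- orders
  set U : Subgroup N := RGD.Sup X (RGD.Pos (CoxeterMatrix.B 2).toCoxeterSystem (Nodes.TypeC.isCartan 2)) with hU
  set V : Subgroup N := VJ (CoxeterMatrix.B 2).toCoxeterSystem (Nodes.TypeC.isCartan 2) X ({1} : Set (Fin 2)) with hV
  have hUM : H833.TenFive.MaxP 3 U :=
    ⟨R.isPGroup_Upos, fun P hP h1 => KFacts.RgdEx.eq_U R h1 (by rw [hGG]; exact le_top) hP⟩
  have hcU : Nat.card U = 729 := by
    obtain ⟨P, hP⟩ := hUM.exists_sylow
    rw [← hP]
    exact card_sylow_three hcN P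
  have hb : Nat.card (X (sr 1)) = 3 := by
    have h4 := card_Up R
    rw [← hU, hcU, ha] at h4
    have h5 : Nat.card (X (sr 1)) ≤ 3 := by
      by_contra hcon
      push Not at hcon
      have h6 : 4 ^ 2 ≤ Nat.card (X (sr 1)) ^ 2 := Nat.pow_le_pow_left hcon 2
      omega
    interval_cases Nat.card (X (sr 1)) <;> omega
  have hcV : Nat.card V = 243 := by
    rw [hV, card_V R, ha, hb]
    norm_num
  have hcomm := comm_central R ha hb
  rw [← hV, ← hU] at hcomm
  refine ⟨N, U.map N.subtype, V.map N.subtype, ?_⟩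
  refine ⟨hNA, hN, hcN, Subgroup.map_mono (VJ_le_U _), Subgroup.map_subtype_le _, ?_, ?_, ?_, ?_, ?_⟩
  · rw [Subgroup.card_map_of_injective N.subtype_injective, hcV]
  · rw [Subgroup.card_map_of_injective N.subtype_injective, hcU]
  · rintro _ ⟨v, hv, rfl⟩ _ ⟨w, hw, rfl⟩ _ ⟨u, hu, rfl⟩
    exact congrArg Subtype.val (hcomm v hv w hw u hu)
  · intro S hS hSn
    have h4 : S.subgroupOf N ≤ PJ (CoxeterMatrix.B 2).toCoxeterSystem (Nodes.TypeC.isCartan 2) T X ({1} : Set (Fin 2)) := by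
      have h5 := KFacts.RgdVJ.normalizer_VJ R ({1} : Set (Fin 2))
      rw [hGG, inf_top_eq] at h5
      rw [← h5]
      intro w hw
      rw [mem_normalizer_iff_cj]
      apply Subgroup.eq_of_le_of_card_ge
      · rintro _ ⟨v, hv, rfl⟩
        obtain ⟨v', hv', e1⟩ := hSn w hw v ⟨v, hv, rfl⟩
        have e2 : v' = w * v * w⁻¹ := Subtype.ext e1
        change w * v * w⁻¹ ∈ _
        rw [← e2]
        exact hv'
      · rw [card_cj]
    have h6 : Nat.card (S.subgroupOf N) = Nat.card S := Nat.card_congr (Subgroup.subgroupOfEquivOfLe hS).toEquiv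
    rw [← h6, ← hcN, ← hcV]
    exact (Nat.mul_le_mul_right _ (Subgroup.card_le_of_le h4)).trans (card_PJ_mul R)
  · intro x hx hVx
    have hJ : ({1} : Set (Fin 2)) ≠ Set.univ := by
      intro e1
      have h4 : (0 : Fin 2) ∈ ({1} : Set (Fin 2)) := by rw [e1]; trivial
      simp at h4
    have h5 : Nodes.Reps.cj (1 : N) V ≤ (H284.cj x A).subgroupOf N := by
      rw [cj_one]
      intro v hv
      exact hVx ⟨v, hv, rfl⟩
    obtain ⟨g, h6, h7⟩ := H833.TenFive.exists_sylow_cj h hNs hNA hNΓ hc R hBT hGG hX hconn hJ hx h5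
    rw [cj_one] at h6
    refine ⟨(Nodes.Reps.cj g U).map N.subtype, Subgroup.map_subtype_le _, ?_, Subgroup.map_mono h6, ?_⟩
    · rintro _ ⟨u, hu, rfl⟩
      exact h7 hu
    · rw [Subgroup.card_map_of_injective N.subtype_injective, card_cj, hcU]

end Cfsg.Agent.H781.EPU
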